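import Mathlib

set_option autoImplicit false

namespace CfsgLib.FixedByTwo

variable {A : Type*} [CommRing A]

/-- A minimal non-zero idempotent. -/
def IdemAtom (e : A) : Prop := e ≠ 0 ∧ e * e = e ∧ ∀ d : A, d * d = d → d * e = d → d = 0 ∨ d = e

variable {N : ℕ}

theorem pow_pred_idem (hN : 2 ≤ N) (hA : ∀ a : A, a ^ N = a) (a : A) :
    a ^ (N - 1) * a ^ (N - 1) = a ^ (N - 1) := by
  have h1 : a ^ (N - 1) * a = a := by rw [← pow_succ, show N - 1 + 1 = N by omega, hA]
  have h2 : ∀ k, 1 ≤ k → a ^ (N - 1) * a ^ k = a ^ k := by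
    intro k hk
    obtain ⟨j, rfl⟩ := Nat.exists_eq_add_of_le hk
    rw [add_comm, pow_succ', ← mul_assoc, h1]
  exact h2 _ (by omega)

theorem atom_unit (hN : 2 ≤ N) (hA : ∀ a : A, a ^ N = a) {e c : A} (he : IdemAtom e)
    (hce : c * e = c) (hc : c ≠ 0) : c ^ (N - 1) = e := by
  have h1 : c ^ (N - 1) * e = c ^ (N - 1) := by
    rw [show N - 1 = N - 2 + 1 by omega, pow_succ, mul_assoc, hce]
  rcases he.2.2 _ (pow_pred_idem hN hA c) h1 with h | h
  · exfalso
    apply hc
    rw [← hA c, show N = N - 1 + 1 by omega, pow_succ, h, zero_mul]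
  · exact h

theorem atom_orth {d e : A} (hd : IdemAtom d) (he : IdemAtom e) (hne : d ≠ e) : d * e = 0 := by
  have hi : d * e * (d * e) = d * e := by
    rw [mul_mul_mul_comm, hd.2.1, he.2.1]
  have h1 : d * e * e = d * e := by rw [mul_assoc, he.2.1]
  have h2 : d * e * d = d * e := by rw [mul_comm d e, mul_assoc, hd.2.1]
  rcases he.2.2 _ hi h1 with h | h
  · exact h
  rcases hd.2.2 _ hi h2 with h' | h'
  · exact h'
  · exact absurd (h'.symm.trans h) hne

theorem exists_atom_le [Finite A] {u : A} (hu : u ≠ 0) (hi : u * u = u) :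
    ∃ e : A, IdemAtom e ∧ e * u = e := by
  classical
  have := Fintype.ofFinite A
  let le := fun e : A => (Finset.univ.filter fun d : A => d * d = d ∧ d * e = d).card
  obtain ⟨e, ⟨he0, hei, heu⟩, hmin⟩ := Set.exists_min_image
    {d : A | d ≠ 0 ∧ d * d = d ∧ d * u = d} le (Set.toFinite _) ⟨u, hu, hi, hi⟩
  refine ⟨e, ⟨he0, hei, fun d hd hde => ?_⟩, heu⟩
  by_cases hd0 : d = 0
  · exact Or.inl hd0
  refine Or.inr ?_
  have hdu : d * u = d := by rw [← hde, mul_assoc, heu]
  have hsub : (Finset.univ.filter fun c : A => c * c = c ∧ c * d = c) ⊆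
      (Finset.univ.filter fun c : A => c * c = c ∧ c * e = c) := by
    intro c hc
    simp only [Finset.mem_filter, Finset.mem_univ, true_and] at hc ⊢
    exact ⟨hc.1, by rw [← hc.2, mul_assoc, hde]⟩
  have heq := Finset.eq_of_subset_of_card_le hsub (hmin d ⟨hd0, hd, hdu⟩)
  have hm : e ∈ (Finset.univ.filter fun c : A => c * c = c ∧ c * d = c) := by
    rw [heq]; simp [hei]
  simp only [Finset.mem_filter, Finset.mem_univ, true_and] at hm
  rw [← hde, mul_comm, hm.2]

theorem prod_one_sub_atoms [Finite A] (Ω : Finset A) (hΩ : ∀ e, e ∈ Ω ↔ IdemAtom e) :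
    ∏ e ∈ Ω, (1 - e) = 0 := by
  classical
  by_contra h
  have hi : (∏ e ∈ Ω, (1 - e)) * (∏ e ∈ Ω, (1 - e)) = ∏ e ∈ Ω, (1 - e) := by
    rw [← Finset.prod_mul_distrib]
    refine Finset.prod_congr rfl fun e he => ?_
    have := ((hΩ e).1 he).2.1
    linear_combination this
  obtain ⟨d, hd, hdu⟩ := exists_atom_le h hi
  refine hd.1 ?_
  rw [← hdu, ← Finset.mul_prod_erase Ω _ ((hΩ d).2 hd), ← mul_assoc, mul_sub, mul_one, hd.2.1,
    sub_self, zero_mul]

theorem atom_smul {S : Type*} [Group S] [MulSemiringAction S A] (s : S) {e : A}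
    (he : IdemAtom e) : IdemAtom (s • e) := by
  refine ⟨fun h => he.1 ?_, by rw [← smul_mul', he.2.1], fun d hd hde => ?_⟩
  · rw [← inv_smul_smul s e, h, smul_zero]
  · have h1 : (s⁻¹ • d) * (s⁻¹ • d) = s⁻¹ • d := by rw [← smul_mul', hd]
    have h2 : (s⁻¹ • d) * e = s⁻¹ • d := by
      nth_rw 1 [← inv_smul_smul s e]
      rw [← smul_mul', hde]
    rcases he.2.2 _ h1 h2 with h | h
    · left; rw [← smul_inv_smul s d, h, smul_zero]
    · right; rw [← smul_inv_smul s d, h]

/-- In a finite field of two-power order, the fixed field of a two-group of automorphisms has at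
least eight elements as soon as some automorphism has odd prime order. -/
theorem eight_le_fixed {F : Type*} [Field F] [Finite F] [CharP F 2] (T : Subgroup (F ≃+* F))
    (hT : IsPGroup 2 T) (x : F ≃+* F) {q : ℕ} (hq : q.Prime) (hq2 : q ≠ 2) (hx : orderOf x = q) :
    8 ≤ Nat.card (FixedPoints.subfield T F) := by
  haveI : Fact (Nat.Prime 2) := ⟨Nat.prime_two⟩
  have : Finite (F ≃+* F) := Finite.of_injective (fun f => (f : F → F)) DFunLike.coe_injective
  haveI := Fintype.ofFinite T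
  haveI := Fintype.ofFinite (Subgroup.zpowers x)
  obtain ⟨n, hn⟩ : ∃ n, Nat.card F = 2 ^ n := by
    letI := ZMod.algebra F 2
    exact ⟨Module.finrank (ZMod 2) F, by
      rw [Module.natCard_eq_pow_finrank (K := ZMod 2), Nat.card_zmod]⟩
  have hb : ∀ K : Subfield F, Nat.card F = Nat.card K ^ Module.finrank K F :=
    fun K => Module.natCard_eq_pow_finrank (K := K)
  have hpos : 0 < n := by
    rcases Nat.eq_zero_or_pos n with h | h
    · have := Finite.one_lt_card (α := F); simp [h] at hn; omega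
    · exact h
  have h1 := hb (FixedPoints.subfield T F)
  rw [FixedPoints.finrank_eq_card, ← Nat.card_eq_fintype_card] at h1
  have h2 := hb (FixedPoints.subfield (Subgroup.zpowers x) F)
  rw [FixedPoints.finrank_eq_card, ← Nat.card_eq_fintype_card, Nat.card_zpowers, hx] at h2
  obtain ⟨i, hi⟩ := IsPGroup.iff_card.1 hT
  rw [hn, hi] at h1
  rw [hn] at h2
  have hk : Nat.card (FixedPoints.subfield T F) ∣ 2 ^ n :=
    h1 ▸ dvd_pow_self _ (pow_ne_zero _ (by norm_num))
  obtain ⟨k, -, hk⟩ := (Nat.dvd_prime_pow Nat.prime_two).1 hk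
  have hl : Nat.card (FixedPoints.subfield (Subgroup.zpowers x) F) ∣ 2 ^ n :=
    h2 ▸ dvd_pow_self _ hq.ne_zero
  obtain ⟨l, -, hl⟩ := (Nat.dvd_prime_pow Nat.prime_two).1 hl
  rw [hk, ← pow_mul] at h1
  rw [hl, ← pow_mul] at h2
  have h1' := Nat.pow_right_injective le_rfl h1
  have h2' := Nat.pow_right_injective le_rfl h2
  have hd : q ∣ k * 2 ^ i := h1' ▸ h2' ▸ dvd_mul_left q l
  have hcop : q.Coprime (2 ^ i) := Nat.Coprime.pow_right _ ((Nat.coprime_primes hq Nat.prime_two).2 hq2)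
  have hqk : q ∣ k := hcop.dvd_of_dvd_mul_right hd
  have hk0 : 0 < k := by
    rcases Nat.eq_zero_or_pos k with h | h
    · rw [h, zero_mul] at h1'; omega
    · exact h
  have : 3 ≤ k := le_trans (by have := hq.two_le; omega) (Nat.le_of_dvd hk0 hqk)
  rw [hk]
  calc 8 = 2 ^ 3 := rfl
    _ ≤ 2 ^ k := Nat.pow_le_pow_right (by norm_num) this

end CfsgLib.FixedByTwo
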