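import Cfsg.Agent.FixedByTwo.Atoms

set_option autoImplicit false
set_option maxHeartbeats 1000000

open scoped IsMulCommutative commutatorElement

namespace CfsgLib.FixedByTwo

variable {S : Type*} [Group S] {E : Type*} [AddCommGroup E] [Module (ZMod 2) E]

theorem two_mul_end_eq_zero (a : Module.End (ZMod 2) E) : a + a = 0 := by
  ext v
  have h : (1 + 1 : ZMod 2) = 0 := by decide
  have h' : (1 + 1 : ZMod 2) • a v = 0 := by rw [h, zero_smul]
  rw [add_smul, one_smul] at h'
  simpa using h'

theorem add_pow_two_pow {a b : Module.End (ZMod 2) E} (h : Commute a b) (f : ℕ) :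
    (a + b) ^ (2 ^ f) = a ^ (2 ^ f) + b ^ (2 ^ f) := by
  induction f with
  | zero => simp
  | succ f ih =>
    have hc : Commute (a ^ (2 ^ f)) (b ^ (2 ^ f)) := h.pow_pow _ _
    rw [pow_succ, pow_mul, pow_mul, pow_mul, ih, pow_two, pow_two, pow_two, mul_add, add_mul, add_mul,
      hc.eq.symm]
    calc _ = a ^ 2 ^ f * a ^ 2 ^ f + b ^ 2 ^ f * b ^ 2 ^ f
          + (a ^ 2 ^ f * b ^ 2 ^ f + a ^ 2 ^ f * b ^ 2 ^ f) := by abel
      _ = _ := by rw [two_mul_end_eq_zero, add_zero]

variable (ρ : Representation (ZMod 2) S E) (P : Subgroup S)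

/-- The subring of endomorphisms generated by the images of `P`. -/
def genRing : Subring (Module.End (ZMod 2) E) := Subring.closure (ρ '' (P : Set S))

theorem rho_mem {g : S} (hg : g ∈ P) : ρ g ∈ genRing ρ P :=
  Subring.subset_closure ⟨g, hg, rfl⟩

theorem conj_mem [P.Normal] (s : S) {a : Module.End (ZMod 2) E} (ha : a ∈ genRing ρ P) :
    ρ s * a * ρ s⁻¹ ∈ genRing ρ P := by
  have hu : ρ s⁻¹ * ρ s = 1 := by rw [← map_mul, inv_mul_cancel, map_one]
  induction ha using Subring.closure_induction with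
  | mem x hx =>
    obtain ⟨g, hg, rfl⟩ := hx
    rw [← map_mul, ← map_mul]
    exact rho_mem ρ P (Subgroup.Normal.conj_mem inferInstance g hg s)
  | zero => simp
  | one => rw [mul_one, ← map_mul, mul_inv_cancel, map_one]; exact one_mem _
  | add x y _ _ hx hy => rw [mul_add, add_mul]; exact add_mem hx hy
  | neg x _ hx => rw [mul_neg, neg_mul]; exact neg_mem hx
  | mul x y _ _ hx hy =>
    have : ρ s * (x * y) * ρ s⁻¹ = (ρ s * x * ρ s⁻¹) * (ρ s * y * ρ s⁻¹) := by
      simp only [mul_assoc]
      rw [← mul_assoc (ρ s⁻¹) (ρ s), hu, one_mul]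
    rw [this]; exact mul_mem hx hy

/-- The action of the group by conjugation on the subring. -/
@[reducible] def conjAction [P.Normal] : MulSemiringAction S (genRing ρ P) where
  smul s a := ⟨ρ s * (a : Module.End (ZMod 2) E) * ρ s⁻¹, conj_mem ρ P s a.2⟩
  one_smul a := Subtype.ext (show ρ 1 * _ * ρ 1⁻¹ = _ by simp)
  mul_smul s t a := Subtype.ext (show ρ (s * t) * _ * ρ (s * t)⁻¹ = ρ s * (ρ t * _ * ρ t⁻¹) * ρ s⁻¹ by
    simp [mul_assoc])
  smul_zero s := Subtype.ext (show ρ s * 0 * ρ s⁻¹ = 0 by simp)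
  smul_add s a b := Subtype.ext (show ρ s * (_ + _) * ρ s⁻¹ = ρ s * _ * ρ s⁻¹ + ρ s * _ * ρ s⁻¹ by
    rw [mul_add, add_mul])
  smul_one s := Subtype.ext (show ρ s * 1 * ρ s⁻¹ = 1 by rw [mul_one, ← map_mul]; simp)
  smul_mul s a b := Subtype.ext (show ρ s * (_ * _) * ρ s⁻¹ = ρ s * _ * ρ s⁻¹ * (ρ s * _ * ρ s⁻¹) by
    have hu : ρ s⁻¹ * ρ s = 1 := by rw [← map_mul, inv_mul_cancel, map_one]
    simp only [mul_assoc]
    rw [← mul_assoc (ρ s⁻¹) (ρ s), hu, one_mul])

theorem genRing_pow [Finite S] (hPab : ∀ a ∈ P, ∀ b ∈ P, a * b = b * a) {f : ℕ}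
    (hf : ∀ g ∈ P, g ^ (2 ^ f) = g) {a : Module.End (ZMod 2) E} (ha : a ∈ genRing ρ P) :
    a ^ (2 ^ f) = a := by
  have hcomm : ∀ x ∈ ρ '' (P : Set S), ∀ y ∈ ρ '' (P : Set S), x * y = y * x := by
    rintro _ ⟨x, hx, rfl⟩ _ ⟨y, hy, rfl⟩
    rw [← map_mul, ← map_mul, hPab x hx y hy]
  have := Subring.isMulCommutative_closure hcomm
  have cc : ∀ x ∈ genRing ρ P, ∀ y ∈ genRing ρ P, Commute x y := fun x hx y hy =>
    congrArg Subtype.val (mul_comm' (⟨x, hx⟩ : Subring.closure (ρ '' (P : Set S))) ⟨y, hy⟩)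
  induction ha using Subring.closure_induction with
  | mem x hx => obtain ⟨g, hg, rfl⟩ := hx; rw [← map_pow, hf g hg]
  | zero => exact zero_pow (by positivity)
  | one => exact one_pow _
  | add x y hx' hy' hx hy => rw [add_pow_two_pow (cc x hx' y hy'), hx, hy]
  | neg x _ hx =>
    have hn : ∀ z : Module.End (ZMod 2) E, -z = z := fun z =>
      neg_eq_of_add_eq_zero_left (two_mul_end_eq_zero z)
    rw [hn, hx]
  | mul x y hx' hy' hx hy => rw [(cc x hx' y hy').mul_pow, hx, hy]

theorem eight_le_or {q : ℕ} [Finite S] [Finite E] (hq : q.Prime) (hq2 : q ≠ 2)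
    [hPn : P.Normal] (hPab : ∀ a ∈ P, ∀ b ∈ P, a * b = b * a) (hPodd : Odd (Nat.card P))
    (S₂ : Sylow 2 S) (Sq : Sylow q S) (hSq : Nat.card Sq = q)
    (htop : ∀ H : Subgroup S, P ≤ H → (S₂ : Subgroup S) ≤ H → (Sq : Subgroup S) ≤ H → H = ⊤)
    (hP1 : P ≠ ⊥) (hcomm : ⁅P, (Sq : Subgroup S)⁆ = P)
    (hE : Nontrivial E)
    (hirr : ∀ N : Submodule (ZMod 2) E, (∀ s : S, ∀ m ∈ N, ρ s m ∈ N) → N = ⊥ ∨ N = ⊤)
    (hfaith : ∀ x ∈ P, ρ x = 1 → x = 1) :
    8 ≤ Nat.card {v : E // ∀ s ∈ (S₂ : Subgroup S), ρ s v = v} ∨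
      (Nat.card {v : E // ∀ s ∈ (S₂ : Subgroup S), ρ s v = v} = 4 ∧
        ∃ x ∈ (Sq : Subgroup S), ∃ v : E, (∀ s ∈ (S₂ : Subgroup S), ρ s v = v) ∧
          ¬ ∀ s ∈ (S₂ : Subgroup S), ρ s (ρ x v) = ρ x v) := by
  classical
  haveI := Fact.mk hq
  haveI : Fact (Nat.Prime 2) := ⟨Nat.prime_two⟩
  haveI : Finite (Module.End (ZMod 2) E) := Finite.of_injective (fun f => (f : E → E))
    DFunLike.coe_injective
  haveI : IsMulCommutative (genRing ρ P) := Subring.isMulCommutative_closure (by
    rintro _ ⟨x, hx, rfl⟩ _ ⟨y, hy, rfl⟩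
    rw [← map_mul, ← map_mul, hPab x hx y hy])
  haveI := Fintype.ofFinite (genRing ρ P)
  letI : MulSemiringAction S (genRing ρ P) := conjAction ρ P
  -- exponent
  obtain ⟨N, hN, hA⟩ : ∃ N, 2 ≤ N ∧ ∀ a : genRing ρ P, a ^ N = a := by
    set f := Nat.totient (Nat.card P) with hf
    have hfpos : 0 < f := Nat.totient_pos.2 Nat.card_pos
    refine ⟨2 ^ f, by calc 2 = 2 ^ 1 := rfl
      _ ≤ 2 ^ f := Nat.pow_le_pow_right (by norm_num) hfpos, fun a => Subtype.ext ?_⟩
    rw [SubmonoidClass.coe_pow]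
    refine genRing_pow ρ P hPab (fun g hg => ?_) a.2
    have hm : 2 ^ f ≡ 1 [MOD Nat.card P] :=
      Nat.ModEq.pow_totient (Nat.coprime_two_left.2 hPodd)
    have ho : orderOf g ∣ Nat.card P := P.orderOf_dvd_natCard hg
    have := pow_eq_pow_iff_modEq.2 (hm.of_dvd ho : 2 ^ f ≡ 1 [MOD orderOf g])
    rwa [pow_one] at this
  have hsmul : ∀ (s : S) (a : genRing ρ P) (v : E),
      ((s • a : genRing ρ P) : Module.End (ZMod 2) E) (ρ s v) = ρ s ((a : Module.End (ZMod 2) E) v) := by
    intro s a v
    change ρ s (((a : Module.End (ZMod 2) E)) (ρ s⁻¹ (ρ s v))) = _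
    rw [show ρ s⁻¹ (ρ s v) = v by
      rw [← Module.End.mul_apply, ← map_mul, inv_mul_cancel, map_one, Module.End.one_apply]]
  set Ω := Finset.univ.filter (fun e : genRing ρ P => IdemAtom e) with hΩdef
  have hΩ : ∀ e, e ∈ Ω ↔ IdemAtom e := fun e => by simp [hΩdef]
  -- some atom does not kill a given non-zero vector
  have hsee : ∀ v : E, v ≠ 0 → ∃ e : genRing ρ P, IdemAtom e ∧ (e : Module.End (ZMod 2) E) v ≠ 0 := by
    intro v hv
    by_contra! hc
    refine hv ?_
    have key : ∀ T : Finset (genRing ρ P), (∀ e ∈ T, IdemAtom e) →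
        ((∏ e ∈ T, (1 - e) : genRing ρ P) : Module.End (ZMod 2) E) v = v := by
      intro T
      induction T using Finset.induction_on with
      | empty => intro _; simp
      | insert a T ha ih =>
        intro hT
        rw [Finset.prod_insert ha, MulMemClass.coe_mul, Module.End.mul_apply,
          ih fun e he => hT e (Finset.mem_insert_of_mem he), AddSubgroupClass.coe_sub,
          LinearMap.sub_apply, OneMemClass.coe_one, Module.End.one_apply,
          hc a (hT a (Finset.mem_insert_self _ _)), sub_zero]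
    have := key Ω fun e he => (hΩ e).1 he
    rw [prod_one_sub_atoms Ω hΩ] at this
    simpa using this.symm
  -- an invariant set of atoms is empty or everything
  have htrans : ∀ O : Set (genRing ρ P), (∀ (s : S) (d : genRing ρ P), d ∈ O → s • d ∈ O) →
      ∀ e ∈ O, IdemAtom e → ∀ d, IdemAtom d → (∀ d' ∈ O, IdemAtom d') → d ∈ O := by
    intro O hO e he hea d hd hOa
    by_contra hdO
    let M : Submodule (ZMod 2) E :=
      { carrier := {v | ∀ c : genRing ρ P, IdemAtom c → c ∉ O → (c : Module.End (ZMod 2) E) v = 0}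
        add_mem' := fun hx hy c hc hcO => by simp [hx c hc hcO, hy c hc hcO]
        zero_mem' := fun c _ _ => map_zero _
        smul_mem' := fun r x hx c hc hcO => by simp [hx c hc hcO] }
    have hM : ∀ s : S, ∀ m ∈ M, ρ s m ∈ M := by
      intro s m hm c hc hcO
      have hc' : s⁻¹ • c ∉ O := fun h => hcO (smul_inv_smul s c ▸ hO s _ h)
      have := hsmul s (s⁻¹ • c) m
      rw [smul_inv_smul, hm _ (atom_smul _ hc) hc', map_zero] at this
      exact this
    obtain ⟨v, hv⟩ : ∃ v, (e : Module.End (ZMod 2) E) v ≠ 0 := by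
      by_contra! h; exact hea.1 (Subtype.ext (LinearMap.ext h))
    rcases hirr M hM with h | h
    · have : (e : Module.End (ZMod 2) E) v ∈ M := fun c hc hcO => by
        rw [← Module.End.mul_apply, ← MulMemClass.coe_mul, atom_orth hc hea (fun e' : c = e => hcO (by rw [e']; exact he))]
        rfl
      rw [h, Submodule.mem_bot] at this
      exact hv this
    · refine hd.1 (Subtype.ext (LinearMap.ext fun w => ?_))
      have : w ∈ M := by rw [h]; trivial
      exact this d hd hdO
  -- no atom fixes the image of P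
  have hmove : ∀ e : genRing ρ P, IdemAtom e →
      ¬ ∀ g, ∀ hg : g ∈ P, e * ⟨ρ g, rho_mem ρ P hg⟩ = e := by
    intro e he hall
    let M : Submodule (ZMod 2) E :=
      { carrier := {v | ∀ g ∈ P, ρ g v = v}
        add_mem' := fun hx hy g hg => by simp [hx g hg, hy g hg]
        zero_mem' := fun g _ => map_zero _
        smul_mem' := fun r x hx g hg => by simp [hx g hg] }
    have hM : ∀ s : S, ∀ m ∈ M, ρ s m ∈ M := by
      intro s m hm g hg
      have h1 := hm (s⁻¹ * g * s) (by
        simpa using Subgroup.Normal.conj_mem inferInstance g hg s⁻¹)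
      rw [map_mul, map_mul, Module.End.mul_apply, Module.End.mul_apply] at h1
      have h2 := congrArg (ρ s) h1
      rwa [← Module.End.mul_apply (ρ s) (ρ s⁻¹), ← map_mul, mul_inv_cancel, map_one,
        Module.End.one_apply] at h2
    obtain ⟨v, hv⟩ : ∃ v, (e : Module.End (ZMod 2) E) v ≠ 0 := by
      by_contra! h; exact he.1 (Subtype.ext (LinearMap.ext h))
    rcases hirr M hM with h | h
    · have : (e : Module.End (ZMod 2) E) v ∈ M := fun g hg => by
        have h3 : (⟨ρ g, rho_mem ρ P hg⟩ * e : genRing ρ P) = e := by rw [mul_comm]; exact hall g hg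
        have := congrArg (fun a : genRing ρ P => (a : Module.End (ZMod 2) E) v) h3
        simpa using this
      rw [h, Submodule.mem_bot] at this
      exact hv this
    · obtain ⟨⟨g, hg⟩, hg1⟩ := P.ne_bot_iff_exists_ne_one.1 hP1
      refine hg1 (Subtype.ext (hfaith g hg (LinearMap.ext fun w => ?_)))
      have : w ∈ M := by rw [h]; trivial
      simpa using this g hg
  -- orbits of the Sylow two-subgroup
  set O : genRing ρ P → Set (genRing ρ P) := fun e => {d | ∃ s ∈ (S₂ : Subgroup S), s • e = d} with hO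
  have hfix : ∀ e : genRing ρ P, IdemAtom e → ∀ v : E, (e : Module.End (ZMod 2) E) v = v →
      (∀ s ∈ (S₂ : Subgroup S), s • e = e → ρ s v = v) →
      ∃ w : E, (∀ s ∈ (S₂ : Subgroup S), ρ s w = w) ∧ (e : Module.End (ZMod 2) E) w = v ∧
        ∀ c : genRing ρ P, IdemAtom c → ((c : Module.End (ZMod 2) E) w ≠ 0 → c ∈ O e) ∧
          (v ≠ 0 → c ∈ O e → (c : Module.End (ZMod 2) E) w ≠ 0) := by
    intro e he v hev hv
    have hch : ∀ d : {d // d ∈ O e}, ∃ s ∈ (S₂ : Subgroup S), s • e = (d : genRing ρ P) :=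
      fun d => d.2
    choose t ht htd using hch
    haveI := Fintype.ofFinite {d // d ∈ O e}
    refine ⟨∑ d, ρ (t d) v, fun s hs => ?_, ?_, ?_⟩
    · rw [map_sum]
      let σ : {d // d ∈ O e} ≃ {d // d ∈ O e} :=
        { toFun := fun d => ⟨s • d.1, by
            obtain ⟨r, hr, hrd⟩ := d.2
            exact ⟨s * r, mul_mem hs hr, by rw [mul_smul, hrd]⟩⟩
          invFun := fun d => ⟨s⁻¹ • d.1, by
            obtain ⟨r, hr, hrd⟩ := d.2
            exact ⟨s⁻¹ * r, mul_mem (inv_mem hs) hr, by rw [mul_smul, hrd]⟩⟩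
          left_inv := fun d => Subtype.ext (inv_smul_smul s d.1)
          right_inv := fun d => Subtype.ext (smul_inv_smul s d.1) }
      refine Fintype.sum_equiv σ _ _ fun d => ?_
      have hfx : ((t (σ d))⁻¹ * (s * t d)) • e = e := by
        rw [mul_smul, mul_smul, htd d, show s • (d : genRing ρ P) = (σ d : genRing ρ P) from rfl,
          ← htd (σ d), inv_smul_smul]
      have h := hv _ (mul_mem (inv_mem (ht _)) (mul_mem hs (ht d))) hfx
      have h2 := congrArg (ρ (t (σ d))) h
      rw [← Module.End.mul_apply, ← map_mul, mul_inv_cancel_left, map_mul, Module.End.mul_apply] at h2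
      exact h2
    all_goals
      have happ : ∀ c : genRing ρ P, IdemAtom c → ∀ d : {d // d ∈ O e}, (c : Module.End (ZMod 2) E) (ρ (t d) v)
          = if c = d.1 then ρ (t d) v else 0 := by
        intro c hc d
        have h1 : ((d : genRing ρ P) : Module.End (ZMod 2) E) (ρ (t d) v) = ρ (t d) v := by
          rw [← htd d, hsmul, hev]
        split_ifs with h
        · rw [h, h1]
        · have hd : IdemAtom (d : genRing ρ P) := htd d ▸ atom_smul _ he
          rw [← h1, ← Module.End.mul_apply, ← MulMemClass.coe_mul, atom_orth hc hd h]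
          rfl
    · have hee : e ∈ O e := ⟨1, one_mem _, one_smul _ e⟩
      rw [map_sum, Finset.sum_eq_single (⟨e, hee⟩ : {d // d ∈ O e})]
      · rw [happ e he, if_pos rfl]
        exact hv _ (ht _) (htd _)
      · exact fun d _ hd => by rw [happ e he, if_neg fun h => hd (Subtype.ext h.symm)]
      · simp
    · intro c hc
      constructor
      · intro h
        by_contra hcO
        refine h ?_
        rw [map_sum]
        exact Finset.sum_eq_zero fun d _ => by
          rw [happ c hc, if_neg (fun h' : c = (d : genRing ρ P) => hcO (by rw [h']; exact d.2))]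
      · intro hv0 hcO h
        rw [map_sum, Finset.sum_eq_single (⟨c, hcO⟩ : {d // d ∈ O e})] at h
        · rw [happ c hc, if_pos rfl] at h
          refine hv0 ?_
          have := congrArg (ρ (t ⟨c, hcO⟩)⁻¹) h
          rwa [← Module.End.mul_apply, ← map_mul, inv_mul_cancel, map_one, Module.End.one_apply,
            map_zero] at this
        · exact fun d _ hd => by rw [happ c hc, if_neg fun h' => hd (Subtype.ext h'.symm)]
        · simp
  have hnz : ∀ e : genRing ρ P, IdemAtom e → ∃ v : E, v ≠ 0 ∧ (e : Module.End (ZMod 2) E) v = v ∧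
      ∀ s ∈ (S₂ : Subgroup S), s • e = e → ρ s v = v := by
    intro e he
    let T : Subgroup S := (S₂ : Subgroup S) ⊓ MulAction.stabilizer S e
    let W : Submodule (ZMod 2) E := LinearMap.range (e : Module.End (ZMod 2) E)
    have hW : ∀ v, v ∈ W ↔ (e : Module.End (ZMod 2) E) v = v := by
      refine fun v => ⟨?_, fun h => ⟨v, h⟩⟩
      rintro ⟨u, rfl⟩
      rw [← Module.End.mul_apply, ← MulMemClass.coe_mul, he.2.1]
    letI : MulAction T W :=
      { smul := fun s w => ⟨ρ (s : S) (w : E), (hW _).2 (by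
          have := hsmul (s : S) e (w : E)
          rwa [show (s : S) • e = e from s.2.2, (hW _).1 w.2] at this)⟩
        one_smul := fun w => Subtype.ext (show ρ 1 (w : E) = w by simp)
        mul_smul := fun s t w => Subtype.ext (show ρ ((s : S) * t) (w : E) = ρ s (ρ t w) by simp) }
    have hTp : IsPGroup 2 T := S₂.isPGroup'.to_le inf_le_left
    have hWnt : Nontrivial W := by
      obtain ⟨v, hv⟩ : ∃ v, (e : Module.End (ZMod 2) E) v ≠ 0 := by
        by_contra! h; exact he.1 (Subtype.ext (LinearMap.ext h))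
      exact nontrivial_of_ne (⟨_, v, rfl⟩ : W) 0 fun h => hv (congrArg Subtype.val h)
    have h2 : 2 ∣ Nat.card W := by
      rw [Module.natCard_eq_pow_finrank (K := ZMod 2), Nat.card_zmod]
      exact dvd_pow_self _ Module.finrank_pos.ne'
    have h0 : (0 : W) ∈ MulAction.fixedPoints T W :=
      fun s => Subtype.ext (show ρ (s : S) 0 = 0 from map_zero _)
    obtain ⟨w, hw, hw0⟩ := hTp.exists_fixed_point_of_prime_dvd_card_of_fixed_point W h2 h0
    exact ⟨w, fun h => hw0 (Subtype.ext h.symm), (hW _).1 w.2,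
      fun s hs hse => congrArg Subtype.val (hw ⟨s, hs, hse⟩)⟩
  obtain ⟨e₁, he₁, -⟩ : ∃ e : genRing ρ P, IdemAtom e ∧ True := by
    obtain ⟨v, hv⟩ := exists_ne (0 : E)
    obtain ⟨e, he, -⟩ := hsee v hv
    exact ⟨e, he, trivial⟩
  set V := {v : E // ∀ s ∈ (S₂ : Subgroup S), ρ s v = v} with hV
  by_cases h1 : ∀ d, IdemAtom d → d ∈ O e₁
  · -- a single orbit
    left
    let Se := MulAction.stabilizer S e₁
    have hidx : Se.index ∣ Nat.card (S₂ : Subgroup S) := by
      have hor : MulAction.orbit S e₁ = MulAction.orbit (S₂ : Subgroup S) e₁ := by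
        refine Set.Subset.antisymm ?_ ?_
        · rintro _ ⟨s, rfl⟩
          obtain ⟨t, ht, htd⟩ := h1 _ (atom_smul s he₁)
          exact ⟨⟨t, ht⟩, htd⟩
        · rintro _ ⟨t, rfl⟩; exact ⟨(t : S), rfl⟩
      rw [MulAction.index_stabilizer, hor, ← MulAction.index_stabilizer]
      exact Subgroup.index_dvd_card _
    obtain ⟨m, hm⟩ := IsPGroup.iff_card.1 S₂.isPGroup'
    rw [hm] at hidx
    have hqSe : q ∣ Nat.card Se := by
      have hqS : q ∣ Nat.card S := hSq ▸ Subgroup.card_subgroup_dvd_card _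
      rw [← Se.card_mul_index] at hqS
      refine (Nat.Coprime.dvd_of_dvd_mul_right ?_ hqS)
      exact Nat.Coprime.of_dvd_right hidx
        (Nat.Coprime.pow_right _ ((Nat.coprime_primes hq Nat.prime_two).2 hq2))
    obtain ⟨x, hx⟩ := exists_prime_orderOf_dvd_card' q hqSe
    let J : Ideal (genRing ρ P) := Ideal.span {1 - e₁}
    have hJ : ∀ a, a ∈ J ↔ e₁ * a = 0 := by
      intro a
      rw [Ideal.mem_span_singleton']
      refine ⟨?_, fun h => ⟨a, by rw [mul_sub, mul_one, mul_comm a e₁, h, sub_zero]⟩⟩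
      rintro ⟨c, rfl⟩
      rw [mul_left_comm, mul_sub, mul_one, he₁.2.1, sub_self, mul_zero]
    have hcu : ∀ a, e₁ * a ≠ 0 → (e₁ * a) ^ (N - 1) = e₁ := fun a h =>
      atom_unit hN hA he₁ (by rw [mul_comm e₁ a, mul_assoc, he₁.2.1]) h
    have hJp : J.IsPrime := by
      refine ⟨fun h => he₁.1 ?_, fun {a b} hab => ?_⟩
      · have h1' : (1 : genRing ρ P) ∈ J := by rw [h]; trivial
        simpa using (hJ 1).1 h1'
      · by_contra! hh
        rw [hJ] at hab
        obtain ⟨ha, hb⟩ := hh
        rw [hJ] at ha hb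
        refine hb ?_
        rw [← hcu a ha, show N - 1 = N - 2 + 1 by omega, pow_succ, mul_assoc, mul_assoc, hab,
          mul_zero]
    haveI := hJp
    haveI : J.IsMaximal := Ideal.Quotient.maximal_of_isField J (Finite.isField_of_domain _)
    let F := genRing ρ P ⧸ J
    letI : Field F := Ideal.Quotient.field J
    haveI : Finite F := Finite.of_surjective _ Ideal.Quotient.mk_surjective
    haveI : CharP F 2 := by
      refine CharTwo.of_one_ne_zero_of_two_eq_zero one_ne_zero ?_
      have h2 : (2 : genRing ρ P) = 0 :=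
        one_add_one_eq_two.symm.trans (Subtype.ext (two_mul_end_eq_zero (E := E) 1))
      exact (map_ofNat (Ideal.Quotient.mk J) 2).symm.trans ((congrArg _ h2).trans (map_zero _))
    have hJmap : ∀ s : Se, J = Ideal.map
        ((MulSemiringAction.toRingEquiv S (genRing ρ P) (s : S) :
          genRing ρ P ≃+* genRing ρ P) : genRing ρ P →+* genRing ρ P) J := by
      intro s
      rw [Ideal.map_span, Set.image_singleton]
      refine congrArg (fun a => Ideal.span {a}) ?_
      change 1 - e₁ = (s : S) • (1 - e₁)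
      rw [smul_sub, smul_one, show (s : S) • e₁ = e₁ from s.2]
    let φ : Se →* (F ≃+* F) :=
      { toFun := fun s => Ideal.quotientEquiv J J
          (MulSemiringAction.toRingEquiv S (genRing ρ P) (s : S)) (hJmap s)
        map_one' := by
          refine RingEquiv.ext fun a => ?_
          obtain ⟨a, rfl⟩ := Ideal.Quotient.mk_surjective a
          change Ideal.Quotient.mk J ((1 : S) • a) = _
          rw [one_smul]; rfl
        map_mul' := fun s t => by
          refine RingEquiv.ext fun a => ?_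
          obtain ⟨a, rfl⟩ := Ideal.Quotient.mk_surjective a
          change Ideal.Quotient.mk J (((s : S) * t) • a) = Ideal.Quotient.mk J ((s : S) • ((t : S) • a))
          rw [mul_smul] }
    have hφ : ∀ (s : Se) (a : genRing ρ P),
        φ s (Ideal.Quotient.mk J a) = Ideal.Quotient.mk J ((s : S) • a) := fun s a => rfl
    have hxord : orderOf (φ x) = q := by
      refine orderOf_eq_prime (by rw [← map_pow, ← hx, pow_orderOf_eq_one, map_one]) fun hx1 => ?_
      -- x centralises P on this component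
      have hfx : ∀ c ∈ Subgroup.zpowers x, ∀ a : genRing ρ P, e₁ * ((c : S) • a) = e₁ * a := by
        intro c hc a
        have hc1 : φ c = 1 := by
          obtain ⟨n, rfl⟩ := Subgroup.mem_zpowers_iff.1 hc
          rw [map_zpow, hx1, one_zpow]
        have h := hφ c a
        rw [hc1] at h
        have h' := (hJ _).1 (Ideal.Quotient.eq.1 h.symm)
        rwa [mul_sub, sub_eq_zero] at h'
      let K : Subgroup S :=
        { carrier := {g | ∃ hg : g ∈ P, e₁ * ⟨ρ g, rho_mem ρ P hg⟩ = e₁}
          one_mem' := ⟨P.one_mem, by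
            rw [show (⟨ρ 1, rho_mem ρ P P.one_mem⟩ : genRing ρ P) = 1 from Subtype.ext (map_one ρ),
              mul_one]⟩
          mul_mem' := by
            rintro g h ⟨hg, hg'⟩ ⟨hh, hh'⟩
            refine ⟨mul_mem hg hh, ?_⟩
            rw [show (⟨ρ (g * h), rho_mem ρ P (mul_mem hg hh)⟩ : genRing ρ P)
              = ⟨ρ g, rho_mem ρ P hg⟩ * ⟨ρ h, rho_mem ρ P hh⟩ from Subtype.ext (map_mul ρ g h),
              ← mul_assoc, hg', hh']
          inv_mem' := by
            rintro g ⟨hg, hg'⟩
            refine ⟨inv_mem hg, ?_⟩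
            nth_rw 1 [← hg']
            rw [mul_assoc, show (⟨ρ g, rho_mem ρ P hg⟩ : genRing ρ P) * ⟨ρ g⁻¹, rho_mem ρ P (inv_mem hg)⟩
              = 1 from Subtype.ext (by
                rw [MulMemClass.coe_mul, ← map_mul, mul_inv_cancel, map_one, OneMemClass.coe_one]),
              mul_one] }
      let X : Subgroup S := Subgroup.zpowers (x : S)
      have hX : Nat.card X = q ^ (Nat.card S).factorization q := by
        rw [Nat.card_zpowers, Subgroup.orderOf_coe, hx, ← Sq.card_eq_multiplicity]; exact hSq.symm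
      let Xs : Sylow q S := Sylow.ofCard X hX
      obtain ⟨c, hc⟩ := MulAction.exists_smul_eq S Sq Xs
      have hXc : X = (Sq : Subgroup S).map (MulAut.conj c).toMonoidHom := by
        have := congrArg (fun R : Sylow q S => (R : Subgroup S)) hc
        exact this.symm
      have hPX : ⁅P, X⁆ = P := by
        conv_lhs =>
          rw [hXc, ← Subgroup.Normal.map_conj_eq P c]
        change ⁅P.map (MulAut.conj c).toMonoidHom, (Sq : Subgroup S).map (MulAut.conj c).toMonoidHom⁆ = P
        rw [← Subgroup.map_commutator, hcomm]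
        exact Subgroup.Normal.map_conj_eq P c
      have hle : P ≤ K := by
        rw [← hPX, Subgroup.commutator_le]
        intro g hg y hy
        obtain ⟨n, rfl⟩ := Subgroup.mem_zpowers_iff.1 hy
        have hin : (⁅g, (x : S) ^ n⁆) ∈ P := by
          rw [show ⁅g, (x : S) ^ n⁆ = g * ((x : S) ^ n * g⁻¹ * ((x : S) ^ n)⁻¹) by
            rw [commutatorElement_def]; group]
          exact mul_mem hg (Subgroup.Normal.conj_mem hPn _ (inv_mem hg) _)
        refine ⟨hin, ?_⟩
        have h := hfx (x ^ n) (zpow_mem (Subgroup.mem_zpowers x) n) ⟨ρ g⁻¹, rho_mem ρ P (inv_mem hg)⟩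
        have heq : (⟨ρ ⁅g, (x : S) ^ n⁆, rho_mem ρ P hin⟩ : genRing ρ P) =
            ⟨ρ g, rho_mem ρ P hg⟩ * (((x ^ n : Se) : S) • ⟨ρ g⁻¹, rho_mem ρ P (inv_mem hg)⟩) := by
          refine Subtype.ext ?_
          change ρ ⁅g, (x : S) ^ n⁆ = ρ g * (ρ ((x ^ n : Se) : S) * ρ g⁻¹ * ρ ((x ^ n : Se) : S)⁻¹)
          rw [← map_mul, ← map_mul, ← map_mul, SubgroupClass.coe_zpow, commutatorElement_def]
          congr 1
          group
        rw [heq, mul_left_comm, h, mul_left_comm, show (⟨ρ g, rho_mem ρ P hg⟩ : genRing ρ P) *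
          ⟨ρ g⁻¹, rho_mem ρ P (inv_mem hg)⟩ = 1 from Subtype.ext (by
            rw [MulMemClass.coe_mul, ← map_mul, mul_inv_cancel, map_one, OneMemClass.coe_one]), mul_one]
      exact hmove e₁ he₁ fun g hg => (hle hg).2
    let T : Subgroup (F ≃+* F) := ((S₂ : Subgroup S).subgroupOf Se).map φ
    have hT : IsPGroup 2 T := (S₂.isPGroup'.comap_subtype).map φ
    have h8 := eight_le_fixed T hT (φ x) hq hq2 hxord
    obtain ⟨v, hv0, hev, hv⟩ := hnz e₁ he₁
    let K := FixedPoints.subfield T F
    have hrep : ∀ k : K, ∃ a : genRing ρ P, Ideal.Quotient.mk J a = (k : F) :=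
      fun k => Ideal.Quotient.mk_surjective _
    choose r hr using hrep
    have hw : ∀ k : K, ∀ s ∈ (S₂ : Subgroup S), s • e₁ = e₁ →
        ρ s (((e₁ * r k : genRing ρ P) : Module.End (ZMod 2) E) v) =
          ((e₁ * r k : genRing ρ P) : Module.End (ZMod 2) E) v := by
      intro k s hs hse
      have hk : φ ⟨s, hse⟩ (k : F) = (k : F) :=
        k.2 ⟨φ ⟨s, hse⟩, Subgroup.mem_map_of_mem φ hs⟩
      rw [← hr k, hφ, Ideal.Quotient.eq, hJ, mul_sub, sub_eq_zero] at hk
      rw [← hsmul s, smul_mul', hse, hk, hv s hs hse]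
    have hwz : ∀ k : K, ∃ w : V, (e₁ : Module.End (ZMod 2) E) (w : E) =
        ((e₁ * r k : genRing ρ P) : Module.End (ZMod 2) E) v := by
      intro k
      obtain ⟨w, hw1, hw2, -⟩ := hfix e₁ he₁ _
        (by rw [← Module.End.mul_apply, ← MulMemClass.coe_mul, ← mul_assoc, he₁.2.1]) (hw k)
      exact ⟨⟨w, hw1⟩, hw2⟩
    choose W hW using hwz
    refine h8.trans (Nat.card_le_card_of_injective W fun k k' hkk => ?_)
    have h := (hW k).symm.trans ((congrArg (fun u : V => (e₁ : Module.End (ZMod 2) E) (u : E)) hkk).trans (hW k'))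
    rw [← sub_eq_zero, ← LinearMap.sub_apply, ← AddSubgroupClass.coe_sub, ← mul_sub] at h
    by_contra hne
    have hc : e₁ * (r k - r k') ≠ 0 := fun h0 => hne (Subtype.ext (by
      rw [← hr k, ← hr k', Ideal.Quotient.eq, hJ]; exact h0))
    have := congrArg (fun a : genRing ρ P => (a : Module.End (ZMod 2) E) v) (hcu _ hc)
    rw [show N - 1 = N - 2 + 1 by omega, pow_succ, MulMemClass.coe_mul, Module.End.mul_apply, h,
      map_zero, hev] at this
    exact hv0 this.symm
  · -- at least two orbits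
    push Not at h1
    obtain ⟨e₂, he₂, he₂O⟩ := h1
    obtain ⟨v₁, hv₁, hev₁, hf₁⟩ := hnz e₁ he₁
    obtain ⟨v₂, hv₂, hev₂, hf₂⟩ := hnz e₂ he₂
    obtain ⟨w₁, hw₁, hew₁, hs₁⟩ := hfix e₁ he₁ v₁ hev₁ hf₁
    obtain ⟨w₂, hw₂, hew₂, hs₂⟩ := hfix e₂ he₂ v₂ hev₂ hf₂
    have hdisj : ∀ c, c ∈ O e₁ → c ∉ O e₂ := by
      rintro c ⟨s, hs, rfl⟩ ⟨t, ht, h⟩
      exact he₂O ⟨t⁻¹ * s, mul_mem (inv_mem ht) hs, by rw [mul_smul, ← h, inv_smul_smul]⟩
    have hOself : ∀ e, e ∈ O e := fun e => ⟨1, one_mem _, one_smul _ e⟩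
    let M : Submodule (ZMod 2) E :=
      { carrier := {v | ∀ s ∈ (S₂ : Subgroup S), ρ s v = v}
        add_mem' := fun hx hy s hs => by simp [hx s hs, hy s hs]
        zero_mem' := fun s _ => map_zero _
        smul_mem' := fun r x hx s hs => by simp [hx s hs] }
    have hcardM : Nat.card V = 2 ^ Module.finrank (ZMod 2) M := by
      have := Module.natCard_eq_pow_finrank (K := ZMod 2) (V := M)
      rw [Nat.card_zmod] at this
      exact this
    set l : Fin 4 → V := ![⟨0, M.zero_mem⟩, ⟨w₁, hw₁⟩, ⟨w₂, hw₂⟩, ⟨w₁ + w₂, M.add_mem hw₁ hw₂⟩]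
      with hl
    have hz12 : (e₁ : Module.End (ZMod 2) E) w₂ = 0 := by
      by_contra h; exact hdisj _ (hOself e₁) ((hs₂ e₁ he₁).1 h)
    have hz21 : (e₂ : Module.End (ZMod 2) E) w₁ = 0 := by
      by_contra h; exact he₂O ((hs₁ e₂ he₂).1 h)
    have hlinj : Function.Injective l := by
      intro i j hij
      have e1 := congrArg (fun u : V => (e₁ : Module.End (ZMod 2) E) (u : E)) hij
      have e2 := congrArg (fun u : V => (e₂ : Module.End (ZMod 2) E) (u : E)) hij
      fin_cases i <;> fin_cases j <;>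
        simp [hl, hew₁, hew₂, hz12, hz21, hv₁, hv₂, Ne.symm hv₁, Ne.symm hv₂] at e1 e2 ⊢
    have h4 : 4 ≤ Nat.card V := by simpa using Nat.card_le_card_of_injective l hlinj
    by_cases h8 : 8 ≤ Nat.card V
    · exact Or.inl h8
    right
    have hc4 : Nat.card V = 4 := by
      rw [hcardM] at h4 h8 ⊢
      have : Module.finrank (ZMod 2) M < 3 := by
        by_contra h
        exact h8 (le_trans (by norm_num) (Nat.pow_le_pow_right (by norm_num : 1 ≤ 2) (not_lt.1 h)))
      interval_cases Module.finrank (ZMod 2) M <;> simp at h4 ⊢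
    refine ⟨hc4, ?_⟩
    by_contra! hinv
    have hlsurj : Function.Surjective l :=
      ((Nat.bijective_iff_injective_and_card l).2 ⟨hlinj, by simp [hc4]⟩).2
    have hmem : ∀ u, (∀ s ∈ (S₂ : Subgroup S), ρ s u = u) → u = 0 ∨ u = w₁ ∨ u = w₂ ∨ u = w₁ + w₂ := by
      intro u hu
      obtain ⟨i, hi⟩ := hlsurj ⟨u, hu⟩
      have := congrArg Subtype.val hi
      fin_cases i <;> simp [hl] at this <;> simp [this]
    -- every atom lies in one of the two orbits, and supports are equivariant
    let supp : E → Finset (genRing ρ P) := fun u =>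
      Finset.univ.filter fun c => IdemAtom c ∧ (c : Module.End (ZMod 2) E) u ≠ 0
    have hsupp : ∀ (s : S) u, supp (ρ s u) = (supp u).image (fun c => s • c) := by
      intro s u
      ext c
      simp only [supp, Finset.mem_image, Finset.mem_filter, Finset.mem_univ, true_and]
      constructor
      · rintro ⟨hc, hcu⟩
        refine ⟨s⁻¹ • c, ⟨atom_smul _ hc, fun h => hcu ?_⟩, smul_inv_smul s c⟩
        have := hsmul s (s⁻¹ • c) u
        rwa [smul_inv_smul, h, map_zero] at this
      · rintro ⟨d, ⟨hd, hdu⟩, rfl⟩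
        refine ⟨atom_smul _ hd, fun h => hdu ?_⟩
        rw [hsmul] at h
        have := congrArg (ρ s⁻¹) h
        rwa [← Module.End.mul_apply, ← map_mul, inv_mul_cancel, map_one, Module.End.one_apply,
          map_zero] at this
    have hsupp1 : ∀ c, c ∈ supp w₁ ↔ IdemAtom c ∧ c ∈ O e₁ := fun c => by
      simp only [supp, Finset.mem_filter, Finset.mem_univ, true_and]
      exact ⟨fun h => ⟨h.1, (hs₁ c h.1).1 h.2⟩, fun h => ⟨h.1, (hs₁ c h.1).2 hv₁ h.2⟩⟩
    have hsupp2 : ∀ c, c ∈ supp w₂ ↔ IdemAtom c ∧ c ∈ O e₂ := fun c => by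
      simp only [supp, Finset.mem_filter, Finset.mem_univ, true_and]
      exact ⟨fun h => ⟨h.1, (hs₂ c h.1).1 h.2⟩, fun h => ⟨h.1, (hs₂ c h.1).2 hv₂ h.2⟩⟩
    have hd12 : Disjoint (supp w₁) (supp w₂) := Finset.disjoint_left.2 fun c h h' =>
      hdisj c ((hsupp1 c).1 h).2 ((hsupp2 c).1 h').2
    have hsupp3 : supp (w₁ + w₂) = supp w₁ ∪ supp w₂ := by
      ext c
      simp only [supp, Finset.mem_union, Finset.mem_filter, Finset.mem_univ, true_and, map_add]
      constructor
      · rintro ⟨hc, h⟩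
        by_contra! hh
        exact h (by rw [hh.1 hc, hh.2 hc, add_zero])
      · rintro (⟨hc, h⟩ | ⟨hc, h⟩) <;> refine ⟨hc, ?_⟩
        · have : (c : Module.End (ZMod 2) E) w₂ = 0 := by
            by_contra h'; exact hdisj c ((hs₁ c hc).1 h) ((hs₂ c hc).1 h')
          rwa [this, add_zero]
        · have : (c : Module.End (ZMod 2) E) w₁ = 0 := by
            by_contra h'; exact hdisj c ((hs₁ c hc).1 h') ((hs₂ c hc).1 h)
          rwa [this, zero_add]
    have hne1 : 0 < (supp w₁).card := Finset.card_pos.2 ⟨e₁, (hsupp1 _).2 ⟨he₁, hOself _⟩⟩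
    have hne2 : 0 < (supp w₂).card := Finset.card_pos.2 ⟨e₂, (hsupp2 _).2 ⟨he₂, hOself _⟩⟩
    have hcardsupp : ∀ (s : S) u, (supp (ρ s u)).card = (supp u).card := fun s u => by
      rw [hsupp, Finset.card_image_of_injective _ (MulAction.injective s)]
    have hinj : ∀ s : S, Function.Injective (ρ s) := fun s u u' h => by
      have := congrArg (ρ s⁻¹) h
      rwa [← Module.End.mul_apply, ← Module.End.mul_apply, ← map_mul, inv_mul_cancel, map_one,
        Module.End.one_apply] at this
    have hstep : ∀ x ∈ (Sq : Subgroup S), (ρ x w₁ = w₁ ∨ ρ x w₁ = w₂) ∧ (ρ x w₂ = w₁ ∨ ρ x w₂ = w₂) := by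
      intro x hx
      constructor
      · rcases hmem _ (hinv x hx w₁ hw₁) with h | h | h | h
        · refine absurd ((hinj x) (h.trans (map_zero (ρ x)).symm)) fun h' => ?_
          rw [h', map_zero] at hew₁; exact hv₁ hew₁.symm
        · exact Or.inl h
        · exact Or.inr h
        · have := hcardsupp x w₁
          rw [h, hsupp3, Finset.card_union_of_disjoint hd12] at this
          omega
      · rcases hmem _ (hinv x hx w₂ hw₂) with h | h | h | h
        · refine absurd ((hinj x) (h.trans (map_zero (ρ x)).symm)) fun h' => ?_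
          rw [h', map_zero] at hew₂; exact hv₂ hew₂.symm
        · exact Or.inl h
        · exact Or.inr h
        · have := hcardsupp x w₂
          rw [h, hsupp3, Finset.card_union_of_disjoint hd12] at this
          omega
    have hne12 : w₁ ≠ w₂ := fun h => hv₁ (by rw [← hew₁, h, hz12])
    have hfix1 : ∀ x ∈ (Sq : Subgroup S), ρ x w₁ = w₁ := by
      intro x hx
      rcases (hstep x hx).1 with h | h
      · exact h
      exfalso
      have hsw : ρ x w₂ = w₁ := by
        rcases (hstep x hx).2 with h' | h'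
        · exact h'
        · exact absurd (hinj x (h.trans h'.symm)) hne12
      have hp : ∀ n : ℕ, ρ (x ^ (2 * n)) w₁ = w₁ := by
        intro n
        induction n with
        | zero => simp
        | succ n ih =>
          rw [show 2 * (n + 1) = 1 + (1 + 2 * n) by ring, pow_add, pow_add, pow_one, map_mul, map_mul,
            Module.End.mul_apply, Module.End.mul_apply, ih, h, hsw]
      have hxq : x ^ q = 1 := by
        rw [← hSq]; exact congrArg Subtype.val (pow_card_eq_one' (x := (⟨x, hx⟩ : (Sq : Subgroup S))))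
      obtain ⟨j, hj⟩ := hq.odd_of_ne_two hq2
      have := hp j
      refine hne12 ?_
      calc w₁ = ρ (x ^ q) w₁ := by rw [hxq, map_one]; rfl
        _ = w₂ := by rw [hj, pow_succ', map_mul, Module.End.mul_apply, this, h]
    let H : Subgroup S :=
      { carrier := {s | (supp w₁).image (fun c => s • c) = supp w₁}
        one_mem' := by simp
        mul_mem' := fun {a b} ha hb => by
          simp only [Set.mem_setOf_eq] at ha hb ⊢
          rw [show (fun c : genRing ρ P => (a * b) • c) = (fun c => a • c) ∘ (fun c => b • c) from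
            funext fun c => mul_smul a b c, ← Finset.image_image, hb, ha]
        inv_mem' := fun {a} ha => by
          simp only [Set.mem_setOf_eq] at ha ⊢
          nth_rw 1 [← ha]
          rw [Finset.image_image]
          simp [Function.comp_def] }
    have hHtop : H = ⊤ := htop H
      (fun g hg => by
        change (supp w₁).image (fun c => g • c) = supp w₁
        have : (fun c : genRing ρ P => g • c) = id := funext fun c => Subtype.ext (by
          change ρ g * (c : Module.End (ZMod 2) E) * ρ g⁻¹ = c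
          have h := congrArg (fun a : genRing ρ P => (a : Module.End (ZMod 2) E))
            (mul_comm (⟨ρ g, rho_mem ρ P hg⟩ : genRing ρ P) c)
          simp only [MulMemClass.coe_mul] at h
          rw [h, mul_assoc, ← map_mul, mul_inv_cancel, map_one, mul_one])
        rw [this, Finset.image_id])
      (fun s hs => by
        change (supp w₁).image (fun c => s • c) = supp w₁
        rw [← hsupp, hw₁ s hs])
      (fun s hs => by
        change (supp w₁).image (fun c => s • c) = supp w₁
        rw [← hsupp, hfix1 s hs])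
    refine he₂O ((hsupp1 e₂).1 ?_).2
    refine htrans {c | c ∈ supp w₁} (fun s d hd => ?_) e₁ ((hsupp1 _).2 ⟨he₁, hOself _⟩) he₁ e₂ he₂
      fun d hd => ((hsupp1 d).1 hd).1
    have hs : s ∈ H := hHtop ▸ Subgroup.mem_top s
    change _ ∈ supp w₁
    rw [← show (supp w₁).image (fun c => s • c) = supp w₁ from hs]
    exact Finset.mem_image_of_mem _ hd

end CfsgLib.FixedByTwo
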